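import Mathlib
import Cfsg.Agent.H384.RC.KRule
import Cfsg.Agent.S0247
import Cfsg.Agent.S0249

/-!
# S3510 part B, box B52: `PSL₅(2)` (helper686)
-/

set_option autoImplicit false
open Matrix Cfsg
open Cfsg.Agent.H106.RC Cfsg.Agent.H999.PslGraph Cfsg.Agent.H384.RC
open Cfsg.Agent.ClassicalGeometry.AutPSL.Auto

namespace Cfsg.Agent.H686.RC.K52

section perm

open Equiv

theorem card_five {g : Perm (Fin 6)} (hg : orderOf g = 5) :
    Nat.card (Subgroup.centralizer ({g} : Set (Perm (Fin 6)))) = 5 := by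
  obtain ⟨n, hn⟩ := Equiv.Perm.cycleType_prime_order (σ := g) (by rw [hg]; norm_num)
  rw [hg] at hn
  have h1 : g.cycleType.sum ≤ 6 := by
    have := g.sum_cycleType
    rw [this]
    exact (Finset.card_le_univ _).trans (by simp)
  rw [hn, Multiset.sum_replicate, smul_eq_mul] at h1
  have h2 : n = 0 := by omega
  rw [Equiv.Perm.nat_card_centralizer, hn]
  subst h2
  decide

theorem no_comm {a b : Perm (Fin 6)} (ha : orderOf a = 5) (hb : orderOf b = 3)
    (h : a * b = b * a) : False := by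
  have h1 := card_five ha
  have hb' : b ∈ Subgroup.centralizer ({a} : Set (Perm (Fin 6))) := by
    rw [Subgroup.mem_centralizer_iff]
    rintro _ rfl
    exact h
  have h2 : orderOf (⟨b, hb'⟩ : Subgroup.centralizer ({a} : Set (Perm (Fin 6)))) = 3 := by
    rw [← hb, ← Subgroup.orderOf_coe]
  have h3 := orderOf_dvd_natCard (⟨b, hb'⟩ : Subgroup.centralizer ({a} : Set (Perm (Fin 6))))
  rw [h1, h2] at h3
  omega

/-- the order of an element of odd prime order -/
theorem prime_cases {g : Perm (Fin 6)} {p : ℕ} (hp : p.Prime) (hp2 : p ≠ 2) (hg : g ^ p = 1)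
    (hg1 : g ≠ 1) : orderOf g = p ∧ (p = 3 ∨ p = 5) := by
  have := Fact.mk hp
  have h1 : orderOf g = p := orderOf_eq_prime hg hg1
  refine ⟨h1, ?_⟩
  have h2 := orderOf_dvd_natCard g
  rw [h1, Nat.card_eq_fintype_card, Fintype.card_perm, Fintype.card_fin] at h2
  have h3 : p ≤ 6 := (hp.dvd_factorial).1 h2
  have h4 : 2 ≤ p := hp.two_le
  have h5 : p = 2 ∨ p = 3 ∨ p = 4 ∨ p = 5 ∨ p = 6 := by omega
  rcases h5 with h5 | h5 | h5 | h5 | h5
  · exact absurd h5 hp2
  · exact Or.inl h5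
  · rw [h5] at hp
    exact absurd hp (by norm_num)
  · exact Or.inr h5
  · rw [h5] at hp
    exact absurd hp (by norm_num)

theorem alt_le {g : Perm (Fin 6)} {p : ℕ} (hp : p.Prime) (hp2 : p ≠ 2) (hg : g ^ p = 1)
    (hg1 : g ≠ 1) : alternatingGroup (Fin 6) ≤ Subgroup.normalClosure {g} := by
  have hs : IsSimpleGroup (alternatingGroup (Fin 6)) := alternatingGroup.isSimpleGroup (by simp)
  have hgA : g ∈ alternatingGroup (Fin 6) := by
    rw [Equiv.Perm.mem_alternatingGroup]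
    have h3 : Equiv.Perm.sign g ^ p = 1 := by rw [← map_pow, hg, map_one]
    have h4 : Odd p := hp.odd_of_ne_two hp2
    rcases Int.units_eq_one_or (Equiv.Perm.sign g) with h5 | h5
    · exact h5
    · rw [h5, h4.neg_one_pow] at h3
      exact absurd h3 (by decide)
  have hN : (Subgroup.normalClosure {g}).Normal := Subgroup.normalClosure_normal
  rcases (hN.subgroupOf (alternatingGroup (Fin 6))).eq_bot_or_eq_top with h1 | h1
  · exfalso
    have h2 := Subgroup.subgroupOf_eq_bot.1 h1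
    exact hg1 (Subgroup.disjoint_def.1 h2 (Subgroup.subset_normalClosure rfl) hgA)
  · exact Subgroup.subgroupOf_eq_top.1 h1

end perm

section field

variable {F : Type} [Field F] [Fintype F] (hF : Fintype.card F = 2)

include hF

theorem two_cases (a : F) : a = 0 ∨ a = 1 := by
  by_contra h
  push Not at h
  classical
  have h1 : ({0, 1, a} : Finset F).card = 3 := by
    rw [Finset.card_insert_of_notMem, Finset.card_insert_of_notMem, Finset.card_singleton]
    · simpa using h.2.symm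
    · simp only [Finset.mem_insert, Finset.mem_singleton, not_or]
      exact ⟨zero_ne_one, h.1.symm⟩
  have h2 := Finset.card_le_univ ({0, 1, a} : Finset F)
  omega

theorem one_add_one : (1 : F) + 1 = 0 := by
  rcases two_cases hF (1 + 1 : F) with h | h
  · exact h
  · exact absurd h (by simp)

theorem ring_refl (σ : F ≃+* F) : σ = RingEquiv.refl F := by
  ext a
  rcases two_cases hF a with rfl | rfl <;> simp

/-- the map from `ZMod 2` -/
theorem exists_hom : ∃ φ : ZMod 2 →+* F, Function.Injective φ := by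
  have h : CharP F 2 := by
    have h1 : ringChar F = 2 := by
      have h2 := CharP.ringChar_of_prime_eq_zero Nat.prime_two (R := F) (by
        push_cast
        rw [← one_add_one_eq_two]
        exact one_add_one hF)
      exact h2
    rw [← h1]
    exact ringChar.charP F
  exact ⟨ZMod.castHom (dvd_refl 2) F, RingHom.injective _⟩

theorem ne_zero_eq {c : F} (hc : c ≠ 0) : c = 1 := (two_cases hF c).resolve_left hc

end field

section emb

variable {F : Type} [Field F]

abbrev I := Unit ⊕ (Fin 2 ⊕ Fin 2)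

instance : Nontrivial I := ⟨Sum.inl (), Sum.inr (Sum.inl 0), by simp⟩

/-- block embedding -/
def blk : symplecticGroup (Fin 2) F →* Matrix I I F where
  toFun k := fromBlocks 1 0 0 (k : Matrix (Fin 2 ⊕ Fin 2) (Fin 2 ⊕ Fin 2) F)
  map_one' := by simp
  map_mul' a b := by
    rw [fromBlocks_multiply]
    simp

/-- the embedding into `GL` -/
def emb : symplecticGroup (Fin 2) F →* GL I F := blk.toHomUnits

theorem coe_emb (k : symplecticGroup (Fin 2) F) : (emb k : Matrix I I F) =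
    fromBlocks 1 0 0 (k : Matrix (Fin 2 ⊕ Fin 2) (Fin 2 ⊕ Fin 2) F) := rfl

/-- the map to the automorphism group -/
noncomputable def f : symplecticGroup (Fin 2) F →* MulAut (Matrix.ProjectiveSpecialLinearGroup I F) :=
  Cj.comp emb

theorem f_apply (k : symplecticGroup (Fin 2) F) : f k = Cj (emb k) := rfl

theorem f_eq_one {k : symplecticGroup (Fin 2) F} (h : f k = 1) : k = 1 := by
  rw [f_apply, Cj_eq_one_iff] at h
  obtain ⟨c, hc⟩ := h
  rw [coe_emb] at hc
  have h1 := congrFun (congrFun hc (Sum.inl ())) (Sum.inl ())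
  have h2 : c = 1 := by
    simpa using h1.symm
  rw [h2, one_smul] at hc
  apply Subtype.ext
  ext i j
  have h3 := congrFun (congrFun hc (Sum.inr i)) (Sum.inr j)
  rw [fromBlocks_apply₂₂] at h3
  rw [h3]
  show (1 : Matrix I I F) (Sum.inr i) (Sum.inr j) =
    (1 : Matrix (Fin 2 ⊕ Fin 2) (Fin 2 ⊕ Fin 2) F) i j
  rw [Matrix.one_apply, Matrix.one_apply]
  simp

theorem f_inj : Function.Injective (f (F := F)) :=
  (injective_iff_map_eq_one _).2 fun _ h => f_eq_one h

/-- matrices preserving the form `1 ⊕ J` -/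
theorem exists_emb [Fintype F] (hF : Fintype.card F = 2) (A : GL I F)
    (h : (A : Matrix I I F)ᵀ * fromBlocks 1 0 0 (J (Fin 2) F) * (A : Matrix I I F) =
    fromBlocks 1 0 0 (J (Fin 2) F)) : ∃ k : symplecticGroup (Fin 2) F, A = emb k := by
  obtain ⟨a, b, c, D, hA⟩ : ∃ (a : Matrix Unit Unit F) (b : Matrix Unit (Fin 2 ⊕ Fin 2) F)
      (c : Matrix (Fin 2 ⊕ Fin 2) Unit F) (D : Matrix (Fin 2 ⊕ Fin 2) (Fin 2 ⊕ Fin 2) F),
      (A : Matrix I I F) = fromBlocks a b c D := ⟨_, _, _, _, (fromBlocks_toBlocks _).symm⟩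
  rw [hA, fromBlocks_transpose, fromBlocks_multiply, fromBlocks_multiply] at h
  simp only [Matrix.mul_zero, Matrix.mul_one, zero_add, add_zero] at h
  obtain ⟨h1, h2, h3, h4⟩ := fromBlocks_inj.1 h
  have hb : b = 0 := by
    ext u j
    obtain ⟨⟩ := u
    have h5 := congrFun (congrFun h4 j) j
    have h6 : (J (Fin 2) F) j j = 0 := by
      rcases j with j | j <;> simp [J]
    have h7 : (Dᵀ * J (Fin 2) F * D) j j = 0 := by
      simp only [Matrix.mul_apply, Fintype.sum_sum_type, Fin.sum_univ_two, J, Matrix.transpose_apply,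
        fromBlocks_apply₁₁, fromBlocks_apply₁₂, fromBlocks_apply₂₁, fromBlocks_apply₂₂, Matrix.neg_apply,
        Matrix.one_apply, Matrix.zero_apply]
      simp
      ring
    have h8 : (bᵀ * b) j j = b () j * b () j := by
      simp [Matrix.mul_apply]
    rw [h6, Matrix.add_apply, h7, add_zero, h8] at h5
    simpa using h5
  subst hb
  simp only [Matrix.transpose_zero, Matrix.zero_mul, Matrix.mul_zero, zero_add] at h1 h2 h3 h4
  have hD : D ∈ symplecticGroup (Fin 2) F := SymplecticGroup.mem_iff'.2 h4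
  have hu : IsUnit (J (Fin 2) F) := by
    rw [Matrix.isUnit_iff_isUnit_det]
    exact isUnit_det_J (Fin 2) F
  have hDJ : IsUnit (Dᵀ * J (Fin 2) F) := by
    rw [Matrix.isUnit_iff_isUnit_det] at hu ⊢
    have h9 := congrArg Matrix.det h4
    rw [Matrix.det_mul] at h9
    rw [← h9] at hu
    exact isUnit_of_mul_isUnit_left hu
  have hc : c = 0 := by
    obtain ⟨u, hu⟩ := hDJ
    have h9 : ((u⁻¹ : (Matrix (Fin 2 ⊕ Fin 2) (Fin 2 ⊕ Fin 2) F)ˣ) :
        Matrix (Fin 2 ⊕ Fin 2) (Fin 2 ⊕ Fin 2) F) * (u : Matrix (Fin 2 ⊕ Fin 2) (Fin 2 ⊕ Fin 2) F) = 1 := by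
      rw [← Units.val_mul, inv_mul_cancel, Units.val_one]
    calc c = (((u⁻¹ : (Matrix (Fin 2 ⊕ Fin 2) (Fin 2 ⊕ Fin 2) F)ˣ) :
        Matrix (Fin 2 ⊕ Fin 2) (Fin 2 ⊕ Fin 2) F) * (u : Matrix (Fin 2 ⊕ Fin 2) (Fin 2 ⊕ Fin 2) F)) * c := by
          rw [h9, Matrix.one_mul]
      _ = _ := by rw [Matrix.mul_assoc, hu, h3, Matrix.mul_zero]
  subst hc
  refine ⟨⟨D, hD⟩, ?_⟩
  apply Units.ext
  rw [coe_emb, hA]
  congr 1
  simp only [Matrix.mul_zero, add_zero] at h1
  ext ⟨⟩ ⟨⟩
  have h9 := congrFun (congrFun h1 ()) ()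
  simp only [Matrix.mul_apply, Finset.univ_unique, Finset.sum_singleton, Matrix.transpose_apply,
    PUnit.default_eq_unit, Matrix.one_apply_eq] at h9 ⊢
  refine (two_cases hF (a () ())).resolve_left ?_
  intro h0
  rw [h0] at h9
  simp at h9

end emb

section root

/-- the transvections over the prime field -/
def tauZ (i : Fin 2) : Matrix (Fin 2 ⊕ Fin 2) (Fin 2 ⊕ Fin 2) (ZMod 2) :=
  1 + Matrix.of fun a b => if a = Sum.inl i ∧ b = Sum.inr i then 1 else 0

/-- the swap -/
def swZ : Matrix (Fin 2 ⊕ Fin 2) (Fin 2 ⊕ Fin 2) (ZMod 2) :=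
  Matrix.of fun a b => if a = b.map (Equiv.swap 0 1) (Equiv.swap 0 1) then 1 else 0

def qZ (i : Fin 2) : Matrix I I (ZMod 2) :=
  1 + Matrix.of fun a b => if a = Sum.inr (Sum.inl i) ∧ b = Sum.inl () then 1 else 0

theorem tauZ_mem (i : Fin 2) : tauZ i ∈ symplecticGroup (Fin 2) (ZMod 2) := by
  rw [SymplecticGroup.mem_iff]
  revert i
  decide +kernel

theorem swZ_mem : swZ ∈ symplecticGroup (Fin 2) (ZMod 2) := by
  rw [SymplecticGroup.mem_iff]
  decide +kernel

theorem swZ_tau : swZ * tauZ 0 = tauZ 1 * swZ := by decide +kernel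

theorem qZ_sq (i : Fin 2) : qZ i * qZ i = 1 := by
  revert i
  decide +kernel

theorem BZ_sq : (fromBlocks 1 0 0 (J (Fin 2) (ZMod 2)) : Matrix I I (ZMod 2)) *
    fromBlocks 1 0 0 (J (Fin 2) (ZMod 2)) = 1 := by decide +kernel

theorem qZ_root (i : Fin 2) : (qZ i * (fromBlocks 1 0 0 (J (Fin 2) (ZMod 2)) * (qZ i)ᵀ *
    fromBlocks 1 0 0 (J (Fin 2) (ZMod 2)))) * (qZ i * (fromBlocks 1 0 0 (J (Fin 2) (ZMod 2)) * (qZ i)ᵀ *
    fromBlocks 1 0 0 (J (Fin 2) (ZMod 2)))) = fromBlocks 1 0 0 (tauZ i) := by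
  revert i
  decide +kernel

theorem qZ_comm (i : Fin 2) : qZ i * fromBlocks 1 0 0 (tauZ 0 * tauZ 1) =
    fromBlocks 1 0 0 (tauZ 0 * tauZ 1) * qZ i := by
  revert i
  decide +kernel

theorem tauZ_ne : tauZ 0 * tauZ 1 ≠ 1 := by decide +kernel

end root

section main

variable {F : Type} [Field F]

theorem J_map (φ : ZMod 2 →+* F) : (J (Fin 2) (ZMod 2)).map φ = J (Fin 2) F := by
  rw [J, J, fromBlocks_map, Matrix.map_zero φ (map_zero φ), Matrix.map_neg φ (map_neg φ),
    Matrix.map_one φ (map_zero φ) (map_one φ)]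

theorem blk_map (φ : ZMod 2 →+* F) (k : Matrix (Fin 2 ⊕ Fin 2) (Fin 2 ⊕ Fin 2) (ZMod 2)) :
    (fromBlocks 1 0 0 k : Matrix I I (ZMod 2)).map φ = fromBlocks 1 0 0 (k.map φ) := by
  rw [fromBlocks_map, Matrix.map_zero φ (map_zero φ), Matrix.map_one φ (map_zero φ) (map_one φ),
    Matrix.map_zero φ (map_zero φ)]

/-- the symplectic group map -/
def spm (φ : ZMod 2 →+* F) (k : Matrix (Fin 2 ⊕ Fin 2) (Fin 2 ⊕ Fin 2) (ZMod 2))
    (hk : k ∈ symplecticGroup (Fin 2) (ZMod 2)) : symplecticGroup (Fin 2) F :=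
  ⟨k.map φ, by
    rw [SymplecticGroup.mem_iff] at hk ⊢
    rw [← J_map φ, ← Matrix.transpose_map, ← Matrix.map_mul, ← Matrix.map_mul, hk]⟩

theorem coe_spm (φ : ZMod 2 →+* F) (k : Matrix (Fin 2 ⊕ Fin 2) (Fin 2 ⊕ Fin 2) (ZMod 2))
    (hk : k ∈ symplecticGroup (Fin 2) (ZMod 2)) :
    (spm φ k hk : Matrix (Fin 2 ⊕ Fin 2) (Fin 2 ⊕ Fin 2) F) = k.map φ := rfl

/-- the units `q` -/
def qF (φ : ZMod 2 →+* F) (i : Fin 2) : GL I F :=
  ⟨(qZ i).map φ, (qZ i).map φ, by
    rw [← Matrix.map_mul, qZ_sq, Matrix.map_one φ (map_zero φ) (map_one φ)], by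
    rw [← Matrix.map_mul, qZ_sq, Matrix.map_one φ (map_zero φ) (map_one φ)]⟩

theorem coe_qF (φ : ZMod 2 →+* F) (i : Fin 2) : (qF φ i : Matrix I I F) = (qZ i).map φ := rfl

variable [Fintype F]

theorem inn_Cj (hF : Fintype.card F = 2) (g : GL I F) :
    Cj g ∈ inn (Matrix.ProjectiveSpecialLinearGroup I F) := by
  apply Cj_mem_inn
  apply ne_zero_eq hF
  exact (Matrix.isUnit_iff_isUnit_det _ |>.1 g.isUnit).ne_zero

omit [Fintype F] in
theorem simple_S : IsSimpleGroup (Matrix.ProjectiveSpecialLinearGroup I F) := by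
  let e : I ≃ Fin 5 := Fintype.equivFinOfCardEq (by simp)
  have h := Cfsg.Agent.S0249.result (F := F) 5 (by norm_num)
  have h2 : Nontrivial (Matrix.ProjectiveSpecialLinearGroup I F) := (rePSL (F := F) e).toEquiv.nontrivial
  exact IsSimpleGroup.isSimpleGroup_of_surjective (rePSL (F := F) e).symm.toMonoidHom
    (rePSL (F := F) e).symm.surjective

/-- **box B52** -/
theorem killed_52 (hF : Fintype.card F = 2)
    (B : GL (Unit ⊕ (Fin 2 ⊕ Fin 2)) F)
    (hB : (B : Matrix (Unit ⊕ (Fin 2 ⊕ Fin 2)) (Unit ⊕ (Fin 2 ⊕ Fin 2)) F) =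
      fromBlocks 1 0 0 (J (Fin 2) F)) : Killed (gam B) := by
  obtain ⟨φ, hφ⟩ := exists_hom hF
  have hS : IsSimpleGroup (Matrix.ProjectiveSpecialLinearGroup I F) := simple_S
  -- `B` is an involution
  have hB' : (B : Matrix I I F) = (fromBlocks 1 0 0 (J (Fin 2) (ZMod 2)) : Matrix I I (ZMod 2)).map φ := by
    rw [hB, blk_map, J_map]
  have hBB : B * B = 1 := by
    apply Units.ext
    rw [Units.val_mul, Units.val_one, hB', ← Matrix.map_mul, BZ_sq,
      Matrix.map_one φ (map_zero φ) (map_one φ)]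
  have hBi : B⁻¹ = B := inv_eq_of_mul_eq_one_right hBB
  have hBs : (B : Matrix I I F)ᵀ = B := by
    rw [hB, fromBlocks_transpose, Matrix.J_transpose]
    have h1 : ∀ M : Matrix (Fin 2 ⊕ Fin 2) (Fin 2 ⊕ Fin 2) F, -M = M := by
      intro M
      ext i j
      rw [Matrix.neg_apply, neg_eq_iff_add_eq_zero]
      rcases two_cases hF (M i j) with h | h <;> rw [h]
      · simp
      · exact one_add_one hF
    rw [h1]
    simp
  have ht2 : gam B * gam B = 1 := gam_sq B (Or.inl hBs)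
  -- `f k` commutes with `t`
  have hft : ∀ k : symplecticGroup (Fin 2) F, gam B * f k = f k * gam B := by
    intro k
    rw [f_apply, gam_comm_Cj_iff]
    refine ⟨1, one_ne_zero, ?_⟩
    rw [one_smul, hB, coe_emb, fromBlocks_transpose, fromBlocks_multiply, fromBlocks_multiply]
    have hk := SymplecticGroup.mem_iff'.1 k.2
    simp [hk]
  let τ : Fin 2 → symplecticGroup (Fin 2) F := fun i => spm φ (tauZ i) (tauZ_mem i)
  -- the root elements
  have hroot : ∀ i, (Cj (qF φ i) * gam B * (Cj (qF φ i))⁻¹ * (gam B)⁻¹) ^ 2 = f (τ i) := by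
    intro i
    rw [comm_gam, ← map_pow, f_apply]
    congr 1
    apply Units.ext
    rw [pow_two, Units.val_mul, Units.val_mul, coe_adj, hBi, hB', coe_qF, ← Matrix.transpose_map,
      ← Matrix.map_mul, ← Matrix.map_mul, ← Matrix.map_mul, ← Matrix.map_mul, qZ_root, coe_emb, coe_spm,
      blk_map]
  have hk0 : ((τ 0 * τ 1 : symplecticGroup (Fin 2) F) : Matrix (Fin 2 ⊕ Fin 2) (Fin 2 ⊕ Fin 2) F) =
      (tauZ 0 * tauZ 1).map φ := by
    rw [Submonoid.coe_mul, coe_spm, coe_spm, Matrix.map_mul]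
  have hqc : ∀ i, Cj (qF φ i) * f (τ 0 * τ 1) = f (τ 0 * τ 1) * Cj (qF φ i) := by
    intro i
    rw [f_apply, ← map_mul, ← map_mul]
    congr 1
    apply Units.ext
    rw [Units.val_mul, Units.val_mul, coe_emb, hk0, coe_qF, ← blk_map, ← Matrix.map_mul,
      ← Matrix.map_mul, qZ_comm]
  have hy : f (τ 0 * τ 1) ∈ Subgroup.closure
      {z | ∃ q ∈ inn (Matrix.ProjectiveSpecialLinearGroup I F),
        q * f (τ 0 * τ 1) = f (τ 0 * τ 1) * q ∧ z = q * gam B * q⁻¹ * (gam B)⁻¹} := by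
    have h1 : ∀ i, f (τ i) ∈ Subgroup.closure
        {z | ∃ q ∈ inn (Matrix.ProjectiveSpecialLinearGroup I F),
        q * f (τ 0 * τ 1) = f (τ 0 * τ 1) * q ∧ z = q * gam B * q⁻¹ * (gam B)⁻¹} := by
      intro i
      rw [← hroot i]
      refine Subgroup.pow_mem _ (Subgroup.subset_closure ?_) 2
      exact ⟨_, inn_Cj hF _, hqc i, rfl⟩
    have h2 := Subgroup.mul_mem _ (h1 0) (h1 1)
    rwa [← map_mul] at h2
  have hyi : f (τ 0 * τ 1) ∈ inn (Matrix.ProjectiveSpecialLinearGroup I F) := inn_Cj hF _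
  have hy1 : f (τ 0 * τ 1) ≠ 1 := by
    intro h
    have h1 := congrArg Subtype.val (f_eq_one h)
    rw [hk0] at h1
    apply tauZ_ne
    apply Matrix.map_injective hφ
    show (tauZ 0 * tauZ 1).map φ = (1 : Matrix (Fin 2 ⊕ Fin 2) (Fin 2 ⊕ Fin 2) (ZMod 2)).map φ
    rw [h1, Matrix.map_one φ (map_zero φ) (map_one φ)]
    rfl
  rw [killed_iff]
  intro κ _ x r hFam H hcov
  obtain ⟨e⟩ := Cfsg.Agent.S0247.result hF
  -- the elements of the family
  have hx : ∀ i, ∃ k : symplecticGroup (Fin 2) F, x i = f k := by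
    intro i
    obtain ⟨A, σ, hA⟩ := exists_sem_of_odd (F := F) (ι := I) (by simp) (x i)
      ((hFam.pr i).odd_of_ne_two (hFam.ne2 i)) (hFam.pow i)
    have h1 := hFam.commt i
    rw [hA, ring_refl hF σ, Sem_one, gam_comm_Cj_iff] at h1
    obtain ⟨c, hc, h2⟩ := h1
    rw [ne_zero_eq hF hc, one_smul] at h2
    rw [hB] at h2
    obtain ⟨k, hk⟩ := exists_emb hF A h2.symm
    refine ⟨k, ?_⟩
    rw [hA, ring_refl hF σ, Sem_one, hk]
    rfl
  choose k hk using hx
  have hpk : ∀ i, (e (k i)) ^ r i = 1 := by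
    intro i
    rw [← map_pow]
    have : k i ^ r i = 1 := by
      apply f_eq_one
      rw [map_pow, ← hk]
      exact hFam.pow i
    rw [this, map_one]
  have hnk : ∀ i, e (k i) ≠ 1 := by
    intro i h
    apply hFam.ne1 i
    rw [hk, (map_eq_one_iff e e.injective).1 h, map_one]
  have hord := fun i => prime_cases (hFam.pr i) (hFam.ne2 i) (hpk i) (hnk i)
  have hck : ∀ i j, e (k i) * e (k j) = e (k j) * e (k i) := by
    intro i j
    rw [← map_mul, ← map_mul]
    congr 1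
    apply f_inj
    rw [map_mul, map_mul, ← hk, ← hk]
    exact hFam.comm i j
  have hκ : ∀ i j : κ, i = j := by
    intro i j
    apply hFam.inj
    obtain ⟨h1, h2⟩ := hord i
    obtain ⟨h3, h4⟩ := hord j
    rcases h2 with h2 | h2 <;> rcases h4 with h4 | h4
    · rw [h2, h4]
    · exact (no_comm (h3.trans h4) (h1.trans h2) (hck j i)).elim
    · exact (no_comm (h1.trans h2) (h3.trans h4) (hck i j)).elim
    · rw [h2, h4]
  rcases isEmpty_or_nonempty κ with h0 | ⟨⟨i₀⟩⟩
  · refine fam_root hS (gam B) H _ hyi hy1 ?_ hy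
    intro n hn
    rcases hcov.pt n hn with h | ⟨i, -⟩
    · exact Or.inr h
    · exact h0.elim i
  · refine fam_one hS hcov i₀ (fun i => hκ i i₀) _ hyi hy1 ?_ hy
    -- the normal closure
    have h1 := alt_le (hFam.pr i₀) (hFam.ne2 i₀) (hpk i₀) (hnk i₀)
    have h2 : e (τ 0 * τ 1) ∈ alternatingGroup (Fin 6) := by
      rw [Equiv.Perm.mem_alternatingGroup, map_mul, map_mul]
      let w : symplecticGroup (Fin 2) F := spm φ swZ swZ_mem
      have h3 : w * τ 0 = τ 1 * w := by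
        apply Subtype.ext
        rw [Submonoid.coe_mul, Submonoid.coe_mul, coe_spm, coe_spm, coe_spm, ← Matrix.map_mul,
          ← Matrix.map_mul, swZ_tau]
      have h4 := congrArg (fun z => Equiv.Perm.sign (e z)) h3
      simp only [map_mul] at h4
      have h5 : Equiv.Perm.sign (e (τ 0)) = Equiv.Perm.sign (e (τ 1)) := by
        rw [mul_comm] at h4
        exact mul_right_cancel h4
      rw [h5, Int.units_mul_self]
    have h3 := h1 h2
    -- transport
    have h4 : Subgroup.normalClosure {e (k i₀)} ≤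
        ((Subgroup.closure {z | ∃ c ∈ inn (Matrix.ProjectiveSpecialLinearGroup I F),
          c * gam B = gam B * c ∧ z = c * x i₀ * c⁻¹}).comap f).map e.toMonoidHom := by
      rw [Subgroup.normalClosure, Subgroup.closure_le]
      intro v hv
      obtain ⟨w, hw, hvw⟩ := Group.mem_conjugatesOfSet_iff.1 hv
      rw [Set.mem_singleton_iff] at hw
      subst hw
      obtain ⟨c, rfl⟩ := isConj_iff.1 hvw
      refine ⟨e.symm c * k i₀ * (e.symm c)⁻¹, ?_, ?_⟩
      · show f (e.symm c * k i₀ * (e.symm c)⁻¹) ∈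
          Subgroup.closure {z | ∃ c ∈ inn (Matrix.ProjectiveSpecialLinearGroup I F),
          c * gam B = gam B * c ∧ z = c * x i₀ * c⁻¹}
        apply Subgroup.subset_closure
        refine ⟨f (e.symm c), inn_Cj hF _, (hft _).symm, ?_⟩
        rw [map_mul, map_mul, map_inv, hk]
      · simp
    obtain ⟨z, hz, hze⟩ := h4 h3
    have h5 : z = τ 0 * τ 1 := e.injective hze
    rw [← h5]
    exact hz

end main

end Cfsg.Agent.H686.RC.K52
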