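import Cfsg.Agent.H520.RC.SpId
import Cfsg.Agent.H579.RC.Line
import Cfsg.Agent.S0249
import Cfsg.Agent.LieClassical.SLGen
import Cfsg.Agent.TwoFusion.SLTwoFacts

/-!
# S3510, family D, box D3: at most one member is not scalar on a Lagrangian `W` (helper686)

* `LP B W W'` : Lagrangian pair; `jW L : (W ≃ₗ[F] W) →* Sp B`, `jS L : SpecialLinearGroup F W →* Sp B`; `cj_jW`, `scal'`,
  `scalOn_of_comm`; `perfect_SL`, `simple_SL`, `ncomm_SL`; `mrule_hom` : M-rule for a homomorphism with central kernel;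
* `us h hw c : Sp B` : `v ↦ v + c • (B v w • w' + B v w' • w)`; `dead_pair` : the line rule for this group;
* `dead_D`.
-/

set_option autoImplicit false
open Cfsg

namespace Cfsg.Agent.H686.RC.DD

open MulAction Module Cfsg.Agent.H106.RC Cfsg.Agent.H520.RC
open scoped commutatorElement

section lag

variable {F V : Type} [Field F] [AddCommGroup V] [Module F V] [FiniteDimensional F V]
  {B : LinearMap.BilinForm F V} {W W' : Submodule F V}

/-- Lagrangian pair -/
structure LP (B : LinearMap.BilinForm F V) (W W' : Submodule F V) : Prop where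
  form : NAlt B
  compl : IsCompl W W'
  t : ∀ u ∈ W, ∀ v ∈ W, B u v = 0
  t' : ∀ u ∈ W', ∀ v ∈ W', B u v = 0

omit [FiniteDimensional F V] in
theorem LP.symm (L : LP B W W') : LP B W' W := ⟨L.form, L.compl.symm, L.t', L.t⟩

omit [FiniteDimensional F V] in
theorem LP.dec (L : LP B W W') (v : V) : ∃ a ∈ W, ∃ b ∈ W', v = a + b := by
  have : v ∈ W ⊔ W' := by rw [L.compl.sup_eq_top]; trivial
  obtain ⟨a, ha, b, hb, h⟩ := Submodule.mem_sup.1 this
  exact ⟨a, ha, b, hb, h.symm⟩

omit [FiniteDimensional F V] in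
/-- an element of `W'` orthogonal to `W` is `0` -/
theorem LP.zero' (L : LP B W W') {v : V} (hv : v ∈ W') (h : ∀ w ∈ W, B w v = 0) : v = 0 := by
  apply L.form.nd'
  intro y
  obtain ⟨a, ha, b, hb, rfl⟩ := L.dec y
  rw [map_add, LinearMap.add_apply, h a ha, L.t' b hb v hv, add_zero]

/-- the pairing -/
def pair (B : LinearMap.BilinForm F V) (W W' : Submodule F V) : W' →ₗ[F] Dual F W where
  toFun v := (B.flip (v : V)).comp W.subtype
  map_add' u v := by
    ext w
    simp
  map_smul' a v := by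
    ext w
    simp

omit [FiniteDimensional F V] in
theorem pair_apply (v : W') (w : W) : pair B W W' v w = B w v := rfl

omit [FiniteDimensional F V] in
theorem pair_inj (L : LP B W W') : Function.Injective (pair B W W') := by
  rw [← LinearMap.ker_eq_bot, LinearMap.ker_eq_bot']
  intro v hv
  apply Subtype.ext
  apply L.zero' v.2
  intro w hw
  have := congrArg (fun f => f ⟨w, hw⟩) hv
  exact this

theorem LP.finrank_eq (L : LP B W W') : finrank F W' = finrank F W := by
  have h1 := LinearMap.finrank_le_finrank_of_injective (pair_inj L)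
  have h2 := LinearMap.finrank_le_finrank_of_injective (pair_inj L.symm)
  rw [Subspace.dual_finrank_eq] at h1 h2
  omega

theorem LP.finrank_two (L : LP B W W') : finrank F V = 2 * finrank F W := by
  have h1 := Submodule.finrank_add_eq_of_isCompl L.compl
  rw [L.finrank_eq] at h1
  omega

/-- the pairing as an equivalence -/
noncomputable def pe (L : LP B W W') : W' ≃ₗ[F] Dual F W :=
  LinearEquiv.ofInjectiveOfFinrankEq (pair B W W') (pair_inj L) (by
    rw [Subspace.dual_finrank_eq, L.finrank_eq])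

theorem pe_apply (L : LP B W W') (v : W') (w : W) : pe L v w = B w v := rfl

/-- contragredient -/
noncomputable def star (L : LP B W W') (g : W ≃ₗ[F] W) : W' ≃ₗ[F] W' :=
  (pe L).trans (g.symm.dualMap.trans (pe L).symm)

theorem star_spec (L : LP B W W') (g : W ≃ₗ[F] W) (w : W) (v : W') : B (g w) (star L g v) = B w v := by
  rw [← pe_apply L, star]
  simp only [LinearEquiv.trans_apply, LinearEquiv.apply_symm_apply]
  rw [LinearEquiv.dualMap_apply, LinearEquiv.symm_apply_apply, pe_apply]

/-- the isometry of `V` induced by `g` -/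
noncomputable def ex (L : LP B W W') (g : W ≃ₗ[F] W) : V ≃ₗ[F] V :=
  (Submodule.prodEquivOfIsCompl W W' L.compl).symm.trans
    ((LinearEquiv.prodCongr g (star L g)).trans (Submodule.prodEquivOfIsCompl W W' L.compl))

theorem ex_apply (L : LP B W W') (g : W ≃ₗ[F] W) (w : W) (v : W') :
    ex L g ((w : V) + v) = (g w : V) + star L g v := by
  have h1 : (Submodule.prodEquivOfIsCompl W W' L.compl).symm ((w : V) + v) = (w, v) := by
    rw [LinearEquiv.symm_apply_eq]
    rfl
  rw [ex, LinearEquiv.trans_apply, h1]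
  rfl

theorem ex_mem (L : LP B W W') (g : W ≃ₗ[F] W) : ex L g ∈ Sp B := by
  intro x y
  obtain ⟨a, ha, b, hb, rfl⟩ := L.dec x
  obtain ⟨c, hc, d, hd, rfl⟩ := L.dec y
  rw [show a + b = ((⟨a, ha⟩ : W) : V) + ((⟨b, hb⟩ : W') : V) from rfl,
    show c + d = ((⟨c, hc⟩ : W) : V) + ((⟨d, hd⟩ : W') : V) from rfl, ex_apply, ex_apply]
  simp only [map_add, LinearMap.add_apply]
  rw [star_spec, L.t _ (g _).2 _ (g _).2, L.t' _ (star L g _).2 _ (star L g _).2,
    L.form.swap (star L g _ : V) (g _ : V), star_spec, L.t _ ha _ hc, L.t' _ hb _ hd, L.form.swap b c]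

/-- uniqueness -/
theorem uniq (L : LP B W W') {s t : Sp B} (h0 : ∀ w ∈ W, s.1 w ∈ W) (h1 : ∀ w ∈ W, s.1 w = t.1 w)
    (h2 : ∀ v ∈ W', s.1 v ∈ W') (h3 : ∀ v ∈ W', t.1 v ∈ W') : s = t := by
  have hsur : ∀ w ∈ W, ∃ w0 ∈ W, s.1 w0 = w := by
    intro w hw
    have hinj : Function.Injective ((s.1 : V →ₗ[F] V).restrict h0) := by
      intro a b h
      apply Subtype.ext
      exact s.1.injective (congrArg Subtype.val h)
    obtain ⟨w0, hw0⟩ := (LinearMap.injective_iff_surjective.1 hinj) ⟨w, hw⟩
    exact ⟨w0, w0.2, congrArg Subtype.val hw0⟩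
  apply Subtype.ext
  apply LinearEquiv.ext
  intro x
  obtain ⟨a, ha, b, hb, rfl⟩ := L.dec x
  rw [map_add, map_add, h1 a ha]
  congr 1
  rw [← sub_eq_zero]
  apply L.zero' (W'.sub_mem (h2 b hb) (h3 b hb))
  intro w hw
  obtain ⟨w0, hw0, rfl⟩ := hsur w hw
  rw [map_sub, s.2 w0 b, h1 w0 hw0, t.2 w0 b, sub_self]

/-- the embedding of `GL(W)` -/
noncomputable def jW (L : LP B W W') : (W ≃ₗ[F] W) →* Sp B where
  toFun g := ⟨ex L g, ex_mem L g⟩
  map_one' := by
    apply uniq L
    · intro w hw
      have := ex_apply L 1 ⟨w, hw⟩ 0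
      simp only [Submodule.coe_zero, add_zero, map_zero] at this
      show ex L 1 w ∈ W
      rw [this]
      exact hw
    · intro w hw
      have := ex_apply L 1 ⟨w, hw⟩ 0
      simp only [Submodule.coe_zero, add_zero, map_zero] at this
      exact this
    · intro v hv
      have := ex_apply L 1 0 ⟨v, hv⟩
      simp only [Submodule.coe_zero, zero_add, map_zero] at this
      show ex L 1 v ∈ W'
      rw [this]
      exact (star L 1 _).2
    · intro v hv
      exact hv
  map_mul' g h := by
    have hW : ∀ g (w : W), ex L g w = (g w : V) := by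
      intro g w
      have := ex_apply L g w 0
      simpa only [Submodule.coe_zero, add_zero, map_zero] using this
    have hW' : ∀ g (v : W'), ex L g v = (star L g v : V) := by
      intro g v
      have := ex_apply L g 0 v
      simpa only [Submodule.coe_zero, zero_add, map_zero] using this
    apply uniq L
    · intro w hw
      show ex L (g * h) w ∈ W
      rw [hW (g * h) ⟨w, hw⟩]
      exact ((g * h) _).2
    · intro w hw
      show ex L (g * h) w = ex L g (ex L h w)
      rw [hW (g * h) ⟨w, hw⟩, hW h ⟨w, hw⟩, hW g]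
      rfl
    · intro v hv
      show ex L (g * h) v ∈ W'
      rw [hW' (g * h) ⟨v, hv⟩]
      exact (star L (g * h) _).2
    · intro v hv
      show ex L g (ex L h v) ∈ W'
      rw [hW' h ⟨v, hv⟩, hW' g]
      exact (star L g _).2

theorem jW_apply (L : LP B W W') (g : W ≃ₗ[F] W) (w : W) : (jW L g).1 (w : V) = g w := by
  have := ex_apply L g w 0
  simp only [Submodule.coe_zero, add_zero, map_zero] at this
  exact this

theorem jW_mem' (L : LP B W W') (g : W ≃ₗ[F] W) {v : V} (hv : v ∈ W') : (jW L g).1 v ∈ W' := by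
  have := ex_apply L g 0 ⟨v, hv⟩
  simp only [Submodule.coe_zero, zero_add, map_zero] at this
  show ex L g v ∈ W'
  rw [this]
  exact (star L g _).2

theorem jW_mem (L : LP B W W') (g : W ≃ₗ[F] W) {w : V} (hw : w ∈ W) : (jW L g).1 w ∈ W := by
  rw [jW_apply L g ⟨w, hw⟩]
  exact (g _).2

theorem jW_inj (L : LP B W W') : Function.Injective (jW L) := by
  intro g h hgh
  apply LinearEquiv.ext
  intro w
  apply Subtype.ext
  rw [← jW_apply L, ← jW_apply L, hgh]

/-- restriction of a linear similitude -/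
noncomputable def rs (M : SS B) (hl : M.IsLin) (hW : ∀ v ∈ W, M v ∈ W) : W ≃ₗ[F] W :=
  LinearEquiv.ofInjectiveEndo ((hl.lin : V →ₗ[F] V).restrict hW) (by
    intro a b h
    apply Subtype.ext
    exact M.injective (congrArg Subtype.val h))

theorem rs_apply (M : SS B) (hl : M.IsLin) (hW : ∀ v ∈ W, M v ∈ W) (w : W) :
    ((rs M hl hW w : W) : V) = M w := rfl

theorem cj_jW [Finite F] (L : LP B W W') (M : SS B) (hl : M.IsLin) (hW : ∀ v ∈ W, M v ∈ W)
    (hW' : ∀ v ∈ W', M v ∈ W') (g : W ≃ₗ[F] W) :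
    SS.cj M (jW L g) = jW L (rs M hl hW * g * (rs M hl hW)⁻¹) := by
  have hfV : Finite V := Module.finite_of_finite F
  have h1 : ∀ w ∈ W, ∃ w0 : W, w = M w0 := by
    intro w hw
    obtain ⟨w0, hw0⟩ := (rs M hl hW).surjective ⟨w, hw⟩
    exact ⟨w0, by rw [← rs_apply M hl hW, hw0]⟩
  apply uniq L
  · intro w hw
    obtain ⟨w0, rfl⟩ := h1 w hw
    rw [SS.cj_apply]
    exact hW _ (jW_mem L g w0.2)
  · intro w hw
    obtain ⟨w0, rfl⟩ := h1 w hw
    rw [SS.cj_apply, jW_apply, ← rs_apply M hl hW, ← rs_apply M hl hW, jW_apply]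
    congr 1
    show _ = rs M hl hW (g ((rs M hl hW).symm (rs M hl hW w0)))
    rw [LinearEquiv.symm_apply_apply]
  · intro v hv
    obtain ⟨v0, rfl⟩ := M.surjective v
    rw [SS.cj_apply]
    exact hW' _ (jW_mem' L g (M.mem_of_mem W' hW' hv))
  · intro v hv
    exact jW_mem' L _ hv

omit [FiniteDimensional F V] in
/-- scalar on `W`: the action on `W'` -/
theorem scal' (L : LP B W W') (M : SS B) (hl : M.IsLin) (hW' : ∀ v ∈ W', M v ∈ W') {a : F} (ha : a ≠ 0)
    (hs : ∀ v ∈ W, M v = a • v) : ∀ v ∈ W', M v = (M.l * a⁻¹) • v := by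
  intro v hv
  rw [← sub_eq_zero]
  apply L.zero' (W'.sub_mem (hW' v hv) (W'.smul_mem _ hv))
  intro w hw
  have h1 := hl.form w v
  rw [hs w hw, LinearMap.map_smul₂, smul_eq_mul] at h1
  rw [_root_.map_sub, _root_.map_smul, smul_eq_mul]
  have h2 : B w (M v) = a⁻¹ * (a * B w (M v)) := by rw [inv_mul_cancel_left₀ ha]
  rw [h2, h1]
  ring

omit [FiniteDimensional F V] in
theorem ne_of_not_scal (L : LP B W W') (M : SS B) (hl : M.IsLin) (hW' : ∀ v ∈ W', M v ∈ W') {a : F} (ha : a ≠ 0)
    (hs : ∀ v ∈ W, M v = a • v) (hM : ¬ M.IsScal) : a * a ≠ M.l := by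
  intro h
  apply hM
  refine ⟨a, ha, fun v => ?_⟩
  obtain ⟨c, hc, d, hd, rfl⟩ := L.dec v
  rw [M.map_add, hs c hc, scal' L M hl hW' ha hs d hd, ← h, mul_assoc, mul_inv_cancel₀ ha, mul_one, smul_add]

theorem cj_of_scalOn (L : LP B W W') (M : SS B) (hl : M.IsLin) (hW' : ∀ v ∈ W', M v ∈ W')
    (hs : M.ScalOn W) (g : W ≃ₗ[F] W) : SS.cj M (jW L g) = jW L g := by
  obtain ⟨a, ha, hs⟩ := hs
  have h' := scal' L M hl hW' ha hs
  apply SS.cj_eq
  intro v
  obtain ⟨c, hc, d, hd, rfl⟩ := L.dec v
  rw [M.map_add, map_add, map_add, M.map_add, hs c hc, h' d hd, hs _ (jW_mem L g hc), h' _ (jW_mem' L g hd),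
    map_smul, map_smul]

/-- a map commuting with `SL(W)` is a scalar on `W` -/
theorem scalOn_of_comm (L : LP B W W') (M : SS B) (hl : M.IsLin) (hW : ∀ v ∈ W, M v ∈ W)
    (hn : 2 ≤ finrank F W)
    (hc : ∀ g : SpecialLinearGroup F W, ∀ v, M ((jW L g.1).1 v) = (jW L g.1).1 (M v)) : M.ScalOn W := by
  have h1 : ∀ w : W, ∃ c : F, (rs M hl hW : W ≃ₗ[F] W).toLinearMap.toAddMonoidHom w = c • w := by
    intro w
    obtain ⟨f, hf, hfw⟩ := Submodule.exists_le_ker_of_lt_top (Submodule.span F {w}) (by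
      rw [lt_top_iff_ne_top]
      intro h
      have h2 := finrank_span_le_card (R := F) ({w} : Set W)
      rw [h, finrank_top] at h2
      simp at h2
      omega)
    have hw : f w = 0 := hfw (Submodule.mem_span_singleton_self w)
    obtain ⟨v, hv⟩ : ∃ v, f v ≠ 0 := by
      by_contra hno
      push Not at hno
      exact hf (LinearMap.ext hno)
    have h2 := hc ⟨LinearEquiv.transvection hw, LinearEquiv.transvection.det_eq_one hw⟩ v
    have h3 : M (v : V) = ((rs M hl hW v : W) : V) := rfl
    rw [h3, jW_apply, jW_apply] at h2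
    have h4 : rs M hl hW (LinearEquiv.transvection hw v) = LinearEquiv.transvection hw (rs M hl hW v) :=
      Subtype.ext h2
    rw [LinearEquiv.transvection.apply, LinearEquiv.transvection.apply, map_add, add_right_inj, map_smul] at h4
    refine ⟨(f v)⁻¹ * f (rs M hl hW v), ?_⟩
    rw [mul_smul, ← h4, smul_smul, inv_mul_cancel₀ hv, one_smul]
    rfl
  obtain ⟨c, hc'⟩ := scal_of_lines hn _ h1
  refine ⟨c, ?_, fun v hv => ?_⟩
  · rintro rfl
    have : Nontrivial W := Module.nontrivial_of_finrank_pos (R := F) (by omega)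
    obtain ⟨w, hw⟩ := exists_ne (0 : W)
    apply hw
    apply (rs M hl hW).injective
    have h3 := hc' w
    rw [zero_smul] at h3
    rw [map_zero]
    exact h3
  · exact congrArg Subtype.val (hc' ⟨v, hv⟩)

end lag

section sl

variable {F W : Type} [Field F] [AddCommGroup W] [Module F W] [FiniteDimensional F W]

theorem exists_slE {n : ℕ} (hn : finrank F W = n) :
    Nonempty (Matrix.SpecialLinearGroup (Fin n) F ≃* SpecialLinearGroup F W) :=
  ⟨Matrix.SpecialLinearGroup.toLin_equiv (finBasisOfFinrankEq F W hn)⟩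

omit [FiniteDimensional F W] in
theorem exists_diag {n : ℕ} (b : Basis (Fin n) F W) (d : Fin n → F) (hd : ∏ i, d i = 1) :
    ∃ g : SpecialLinearGroup F W, ∀ i, g.1 (b i) = d i • b i := by
  refine ⟨Matrix.SpecialLinearGroup.toLin_equiv b ⟨Matrix.diagonal d, by rw [Matrix.det_diagonal, hd]⟩, fun i => ?_⟩
  have h1 := congrArg (fun f : W →ₗ[F] W => f (b i)) (Matrix.SpecialLinearGroup.toLin_equiv.toLinearMap_eq b
    ⟨Matrix.diagonal d, by rw [Matrix.det_diagonal, hd]⟩)
  refine h1.trans ?_
  show Matrix.toLin b b (Matrix.diagonal d) (b i) = _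
  rw [Matrix.toLin_self, Finset.sum_eq_single i]
  · rw [Matrix.diagonal_apply_eq]
  · intro j _ hj
    rw [Matrix.diagonal_apply_ne _ hj, zero_smul]
  · intro h
    exact absurd (Finset.mem_univ i) h

omit [FiniteDimensional F W] in
theorem diag_pow {n : ℕ} (b : Basis (Fin n) F W) (d : Fin n → F) {g : SpecialLinearGroup F W}
    (hg : ∀ i, g.1 (b i) = d i • b i) {m : ℕ} (hm : ∀ i, d i ^ m = 1) : g ^ m = 1 := by
  have h1 : ∀ k i, (g ^ k).1 (b i) = d i ^ k • b i := by
    intro k i
    induction k with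
    | zero => rw [pow_zero, pow_zero, one_smul]; rfl
    | succ k ih =>
      rw [pow_succ']
      show g.1 ((g ^ k).1 (b i)) = _
      rw [ih, map_smul, hg, smul_smul, pow_succ]
  apply Subtype.ext
  apply LinearEquiv.toLinearMap_injective
  apply b.ext
  intro i
  show (g ^ m).1 (b i) = b i
  rw [h1, hm, one_smul]

variable [Finite F]

theorem perfect_SL (h : (2 ≤ finrank F W ∧ 3 < Nat.card F) ∨ 3 ≤ finrank F W) :
    commutator (SpecialLinearGroup F W) = ⊤ := by
  have : Fintype F := Fintype.ofFinite F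
  obtain ⟨e⟩ := exists_slE (F := F) (W := W) rfl
  have h1 : commutator (Matrix.SpecialLinearGroup (Fin (finrank F W)) F) = ⊤ := by
    by_cases h3 : 3 ≤ finrank F W
    · exact Cfsg.Agent.LieClassical.SLGen.commutator_eq_top (by rwa [Fintype.card_fin])
    · have h2 : finrank F W = 2 := by omega
      rw [h2]
      apply Cfsg.Agent.TwoFusion.SLTwoFacts.commutator_eq_top
      rw [← Nat.card_eq_fintype_card]
      omega
  have h2 := Subgroup.map_commutator (⊤ : Subgroup (Matrix.SpecialLinearGroup (Fin (finrank F W)) F)) ⊤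
    e.toMonoidHom
  rw [← commutator_def, h1, ← MonoidHom.range_eq_map, MonoidHom.range_eq_top.2 e.surjective] at h2
  exact h2.symm

theorem simple_SL (h : (2 ≤ finrank F W ∧ 3 < Nat.card F) ∨ 3 ≤ finrank F W) :
    IsSimpleGroup (SpecialLinearGroup F W ⧸ Subgroup.center (SpecialLinearGroup F W)) := by
  have : Fintype F := Fintype.ofFinite F
  obtain ⟨e⟩ := exists_slE (F := F) (W := W) rfl
  have e2 := Cfsg.Agent.LieClassical.FieldTransfer.centralQuotientCongr e
  apply isSimple_cgr0 e2
  show IsSimpleGroup (Matrix.ProjectiveSpecialLinearGroup (Fin (finrank F W)) F)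
  by_cases h3 : 3 ≤ finrank F W
  · exact S0249.result _ h3
  · have h2 : finrank F W = 2 := by omega
    rw [h2]
    apply Matrix.ProjectiveSpecialLinearGroup.rank_two_simple
    omega

theorem ncomm_SL (h : (2 ≤ finrank F W ∧ 3 < Nat.card F) ∨ 3 ≤ finrank F W) :
    ¬ IsMulCommutative (SpecialLinearGroup F W ⧸ Subgroup.center (SpecialLinearGroup F W)) := by
  intro hc
  have hs := simple_SL h
  have hp := perfect_SL h
  have : Nontrivial (SpecialLinearGroup F W ⧸ Subgroup.center (SpecialLinearGroup F W)) := hs.toNontrivial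
  have h1 : commutator (SpecialLinearGroup F W) ≤ Subgroup.center (SpecialLinearGroup F W) := by
    rw [commutator_def, Subgroup.commutator_le]
    intro a _ b _
    rw [← QuotientGroup.eq_one_iff]
    have h2 : (QuotientGroup.mk a : SpecialLinearGroup F W ⧸ Subgroup.center (SpecialLinearGroup F W)) *
        QuotientGroup.mk b = QuotientGroup.mk b * QuotientGroup.mk a := hc.is_comm.comm _ _
    rw [commutatorElement_def, QuotientGroup.mk_mul, QuotientGroup.mk_mul, QuotientGroup.mk_mul, h2]
    simp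
  rw [hp] at h1
  have h3 : (Subgroup.center (SpecialLinearGroup F W)) = ⊤ := top_le_iff.1 h1
  have h4 : Subsingleton (SpecialLinearGroup F W ⧸ Subgroup.center (SpecialLinearGroup F W)) := by
    rw [h3]
    exact QuotientGroup.subsingleton_quotient_top
  exact not_subsingleton _ h4

end sl

section mrule

/-- M-rule for a homomorphism with central kernel, only one member acts nontrivially -/
theorem mrule_hom {G Ω X ι : Type*} [Group G] [MulAction G Ω] [Group X] [Finite ι] (f : X →* G)
    (hker : ∀ s, f s = 1 → s ∈ Subgroup.center X) (hperf : commutator X = ⊤)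
    (h1 : IsSimpleGroup (X ⧸ Subgroup.center X)) (h2 : ¬ IsMulCommutative (X ⧸ Subgroup.center X))
    {x : ι → G} {r : ι → ℕ} (hx : PF x r) (hcov : Cov Ω x) (i₀ : ι)
    (hnorm : ∀ s : X, ∃ s', x i₀ * f s * (x i₀)⁻¹ = f s')
    (hcen : ∀ i, i ≠ i₀ → ∀ s, x i * f s = f s * x i) (ω : Ω) :
    (∀ s, f s • ω = ω) ∨ ∃ i, (∀ s, x i * f s = f s * x i) ∧ x i • ω = ω := by
  set K : Subgroup G := f.range with hK
  have hKperf : ⁅K, K⁆ = K := by
    have h3 := Subgroup.map_commutator (⊤ : Subgroup X) ⊤ f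
    rw [← commutator_def, hperf, ← MonoidHom.range_eq_map] at h3
    exact h3.symm
  have hlift : ∀ m : K, ∃ s, f s = m := fun m => m.2
  let π : K →* X ⧸ Subgroup.center X :=
    { toFun := fun m => QuotientGroup.mk (hlift m).choose
      map_one' := by
        rw [QuotientGroup.eq_one_iff]
        exact hker _ (hlift 1).choose_spec
      map_mul' := fun m n => by
        rw [← QuotientGroup.mk_mul, QuotientGroup.eq]
        apply hker
        rw [map_mul, map_inv, map_mul, (hlift _).choose_spec, (hlift _).choose_spec, (hlift _).choose_spec]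
        rw [Subgroup.coe_mul]
        group }
  have hπ : ∀ s, π ⟨f s, s, rfl⟩ = QuotientGroup.mk s := by
    intro s
    show QuotientGroup.mk (hlift ⟨f s, s, rfl⟩).choose = _
    rw [QuotientGroup.eq]
    apply hker
    rw [map_mul, map_inv, (hlift _).choose_spec, inv_mul_cancel]
  have hπs : Function.Surjective π := by
    intro y
    obtain ⟨s, rfl⟩ := QuotientGroup.mk_surjective y
    exact ⟨_, hπ s⟩
  have hπk : π.ker ≤ Subgroup.center K := by
    rintro ⟨_, s, rfl⟩ hs
    rw [MonoidHom.mem_ker] at hs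
    rw [hπ, QuotientGroup.eq_one_iff] at hs
    rw [Subgroup.mem_center_iff]
    rintro ⟨_, t, rfl⟩
    apply Subtype.ext
    show f t * f s = f s * f t
    rw [← map_mul, ← map_mul, Subgroup.mem_center_iff.1 hs]
  have hnK : x i₀ ∈ Subgroup.normalizer (K : Set G) := by
    have h3 : ∀ m ∈ K, x i₀ * m * (x i₀)⁻¹ ∈ K := by
      rintro _ ⟨s, rfl⟩
      obtain ⟨s', hs'⟩ := hnorm s
      exact ⟨s', hs'.symm⟩
    rw [Subgroup.mem_normalizer_iff]
    intro m
    refine ⟨fun hm => h3 m hm, fun hm => ?_⟩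
    have h4 : ∀ n : ℕ, x i₀ ^ n * (x i₀ * m * (x i₀)⁻¹) * (x i₀ ^ n)⁻¹ ∈ K := by
      intro n
      induction n with
      | zero => simpa using hm
      | succ n ih =>
        have h5 := h3 _ ih
        have h6 : x i₀ * (x i₀ ^ n * (x i₀ * m * (x i₀)⁻¹) * (x i₀ ^ n)⁻¹) * (x i₀)⁻¹ =
            x i₀ ^ (n + 1) * (x i₀ * m * (x i₀)⁻¹) * (x i₀ ^ (n + 1))⁻¹ := by
          rw [pow_succ']
          group
        rwa [h6] at h5
    obtain ⟨n, hn⟩ : ∃ n, r i₀ = n + 1 := ⟨r i₀ - 1, by have := (hx.prime i₀).pos; omega⟩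
    have h4 := h4 n
    have h5 : x i₀ ^ n = (x i₀)⁻¹ := by
      rw [eq_inv_iff_mul_eq_one, ← pow_succ, ← hn]
      exact hx.pow i₀
    rw [h5] at h4
    have h6 : (x i₀)⁻¹ * (x i₀ * m * (x i₀)⁻¹) * ((x i₀)⁻¹)⁻¹ = m := by group
    rwa [h6] at h4
  have h3 := mrule_one h1 h2 x r hx.prime hx.inj hx.pow hx.comm K hKperf π hπs hπk i₀ hnK
    (fun i hi m hm => by
      obtain ⟨s, rfl⟩ := hm
      exact hcen i hi s) ω (fun m _ => hcov _)
  rcases h3 with h3 | ⟨i, h3, h4⟩
  · exact Or.inl fun s => h3 ⟨s, rfl⟩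
  · exact Or.inr ⟨i, fun s => h3 _ ⟨s, rfl⟩, h4⟩

end mrule

section fin

variable {F : Type} {V : Type} [Field F] [Finite F] [AddCommGroup V] [Module F V] [FiniteDimensional F V]
  {B : LinearMap.BilinForm F V} {G : Type} [Group G] [Finite G] {Ω : Type} [Finite Ω] [Nonempty Ω] [MulAction G Ω]
  {N : Subgroup G} {ρ : ↥(Sp B) →* G} {ι : Type} [Finite ι] {x : ι → G} {r : ι → ℕ} {M : ι → SS B}

/-- the symmetric square map of two vectors -/
def sq (B : LinearMap.BilinForm F V) (w w' : V) : V →ₗ[F] V :=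
  (B.flip w).smulRight w' + (B.flip w').smulRight w

omit [Finite F] [FiniteDimensional F V] in
theorem sq_apply (w w' v : V) : sq B w w' v = B v w • w' + B v w' • w := rfl

/-- the one parameter group `1 + c • sq w w'` -/
def us (h : NAlt B) {w w' : V} (hw : B w w' = 0) (c : F) : Sp B :=
  ⟨{ toFun := fun v => v + c • sq B w w' v
     invFun := fun v => v - c • sq B w w' v
     left_inv := fun v => by
      have h0 : sq B w w' (sq B w w' v) = 0 := by
        simp only [sq_apply, map_add, map_smul, h.alt, h.swap0 hw, hw]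
        simp
      simp only [map_add, map_smul, h0]
      simp
     right_inv := fun v => by
      have h0 : sq B w w' (sq B w w' v) = 0 := by
        simp only [sq_apply, map_add, map_smul, h.alt, h.swap0 hw, hw]
        simp
      simp only [map_sub, map_smul, h0]
      simp
     map_add' := fun u v => by
      rw [map_add, smul_add]
      abel
     map_smul' := fun a v => by
      rw [map_smul, RingHom.id_apply, smul_add, smul_comm] }, by
    intro u v
    show B (u + c • sq B w w' u) (v + c • sq B w w' v) = B u v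
    simp only [sq_apply, map_add, LinearMap.add_apply, map_smul, LinearMap.smul_apply, smul_eq_mul, h.alt, hw,
      h.swap0 hw, mul_zero, add_zero]
    rw [h.swap w v, h.swap w' v]
    ring⟩

omit [Finite F] [FiniteDimensional F V] in
theorem us_apply (h : NAlt B) {w w' : V} (hw : B w w' = 0) (c : F) (v : V) :
    (us h hw c).1 v = v + c • sq B w w' v := rfl

omit [FiniteDimensional F V] [Finite Ω] in
/-- the line rule with the root group of two vectors -/
theorem dead_pair (E : SpEnv Ω N ρ) (hc : ∀ i j, x i * x j = x j * x i) (hM : ∀ i, Lf ρ (x i) (M i))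
    (hl : ∀ i, (M i).IsLin) (hcov : Cov Ω x) {w w' : V} (hw : B w w' = 0) (h0 : sq B w w' ≠ 0)
    (hs : ∀ i, ∃ a a' : F, a ≠ 0 ∧ a' ≠ 0 ∧ M i w = a • w ∧ M i w' = a' • w' ∧ a * a' ≠ (M i).l) : False := by
  have h1 := E.form.alt w
  have h2 := E.form.alt w'
  have h3 := E.form.swap0 hw
  have key : ∀ i, ∃ k : F, k ≠ 1 ∧ ∀ v, M i (sq B w w' v) = k • sq B w w' (M i v) := by
    intro i
    obtain ⟨a, a', ha, ha', hw1, hw2, hne⟩ := hs i
    refine ⟨a * a' * (M i).l⁻¹, ?_, fun v => ?_⟩
    · intro h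
      apply hne
      rw [mul_inv_eq_one₀ (M i).hl] at h
      exact h
    · have h4 := (hl i).form v w
      have h5 := (hl i).form v w'
      rw [hw1, _root_.map_smul, smul_eq_mul] at h4
      rw [hw2, _root_.map_smul, smul_eq_mul] at h5
      have h6 : B (M i v) w = a⁻¹ * ((M i).l * B v w) := by rw [← h4, inv_mul_cancel_left₀ ha]
      have h7 : B (M i v) w' = a'⁻¹ * ((M i).l * B v w') := by rw [← h5, inv_mul_cancel_left₀ ha']
      rw [sq_apply, sq_apply, (M i).map_add, (hl i).map_smul, (hl i).map_smul, hw1, hw2, h6, h7, smul_add,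
        smul_smul, smul_smul, smul_smul, smul_smul]
      have hl0 := (M i).hl
      congr 2 <;> field_simp
  choose k hk1 hk using key
  refine Cfsg.Agent.H579.RC.line_rule E.env (R := F) (a := fun c => ρ (us E.form hw c)) (ν := k) hc hcov ?_ ?_
    hk1 ?_
  · intro c d
    rw [← map_mul]
    congr 1
    apply Subtype.ext
    apply LinearEquiv.ext
    intro v
    show (us E.form hw (c + d)).1 v = (us E.form hw c).1 ((us E.form hw d).1 v)
    have h4 : sq B w w' (sq B w w' v) = 0 := by
      simp only [sq_apply, map_add, _root_.map_smul, h1, h2, h3, hw]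
      simp
    rw [us_apply, us_apply, us_apply, map_add, _root_.map_smul, h4, smul_zero, add_zero, add_smul]
    abel
  · refine ⟨1, fun h => ?_⟩
    obtain ⟨a, ha⟩ := (E.ker (us E.form hw 1)).1 h
    apply h0
    -- `v + S v = a v` for all `v`, with `v` in the kernel
    have h4 : ∀ v, sq B w w' v = (a - 1) • v := by
      intro v
      have h5 := ha v
      rw [us_apply, one_smul] at h5
      rw [sub_smul, one_smul, ← h5, add_sub_cancel_left]
    have h5 : ∀ v : V, ((a - 1) * (a - 1)) • v = 0 := by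
      intro v
      have h6 : sq B w w' (sq B w w' v) = 0 := by
        simp only [sq_apply, map_add, _root_.map_smul, h1, h2, h3, hw]
        simp
      rw [h4, h4, smul_smul] at h6
      exact h6
    apply LinearMap.ext
    intro v
    rw [h4, LinearMap.zero_apply]
    rcases smul_eq_zero.1 (h5 v) with h6 | h6
    · rw [mul_self_eq_zero.1 h6, zero_smul]
    · rw [h6, smul_zero]
  · intro i c
    show x i * ρ (us E.form hw c) * (x i)⁻¹ = ρ (us E.form hw (k i * c))
    rw [hM i]
    congr 1
    apply SS.cj_eq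
    intro v
    rw [us_apply, us_apply, (M i).map_add, (hl i).map_smul, hk, smul_smul, mul_comm]

omit [Finite F] [FiniteDimensional F V] in
theorem sq_ne (h : NAlt B) {w w' : V} (hw : w ≠ 0) (h2 : (2 : F) ≠ 0)
    (hi : w = w' ∨ ∀ a b : F, a • w + b • w' = 0 → b = 0) : sq B w w' ≠ 0 := by
  intro h0
  apply hw
  apply h.nd'
  intro v
  have h1 := congrArg (fun f : V →ₗ[F] V => f v) h0
  change sq B w w' v = 0 at h1
  rw [sq_apply] at h1
  rcases hi with rfl | hi
  · rw [← add_smul, ← two_mul] at h1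
    rcases smul_eq_zero.1 h1 with h3 | h3
    · rcases mul_eq_zero.1 h3 with h4 | h4
      · exact absurd h4 h2
      · exact h4
    · exact absurd h3 hw
  · rw [add_comm] at h1
    exact hi _ _ h1

/-- the special linear group of `W` in `Sp B` -/
noncomputable def jS {W W' : Submodule F V} (L : LP B W W') : SpecialLinearGroup F W →* Sp B where
  toFun g := jW L g.1
  map_one' := map_one (jW L)
  map_mul' g h := map_mul (jW L) g.1 h.1

omit [Finite F] in
theorem jS_inj {W W' : Submodule F V} (L : LP B W W') : Function.Injective (jS L) := by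
  intro g h hgh
  exact Subtype.ext (jW_inj L hgh)

theorem dead_D (E : SpEnv Ω N ρ) (h2 : (2 : F) ≠ 0) (hx : PF x r) (hcov : Cov Ω x) (hM : ∀ i, Lf ρ (x i) (M i))
    (hl : ∀ i, (M i).IsLin) {W W' : Submodule F V} (hW : IsCompl W W') (ht : ∀ u ∈ W, ∀ v ∈ W, B u v = 0)
    (ht' : ∀ u ∈ W', ∀ v ∈ W', B u v = 0) (hi : ∀ i, ∀ v ∈ W, M i v ∈ W) (hi' : ∀ i, ∀ v ∈ W', M i v ∈ W')
    (hs : ∀ i j, ¬ (M i).ScalOn W → ¬ (M j).ScalOn W → i = j)
    (hex : ¬ (Nat.card F = 3 ∧ finrank F V = 4)) : False := by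
  classical
  have L : LP B W W' := ⟨E.form, hW, ht, ht'⟩
  have hd := E.dim
  have hn2 := L.finrank_two
  have hn : 2 ≤ finrank F W := by omega
  have hq3 : 3 ≤ Nat.card F := by
    have : Fintype F := Fintype.ofFinite F
    rw [Nat.card_eq_fintype_card]
    have h3 : ({0, 1, -1} : Finset F).card = 3 := by
      rw [Finset.card_insert_of_notMem, Finset.card_insert_of_notMem, Finset.card_singleton]
      · rw [Finset.mem_singleton]
        intro h
        apply h2
        linear_combination h
      · simp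
    have h4 := Finset.card_le_univ ({0, 1, -1} : Finset F)
    omega
  have hgood : (2 ≤ finrank F W ∧ 3 < Nat.card F) ∨ 3 ≤ finrank F W := by
    by_cases h3 : 3 < Nat.card F
    · exact Or.inl ⟨hn, h3⟩
    · right
      by_contra h4
      exact hex ⟨by omega, by omega⟩
  have hns : ∀ i, ¬ (M i).IsScal := fun i h => hx.ne i ((E.eq_one_iff (hM i)).2 h)
  have hWnt : Nontrivial W := Module.nontrivial_of_finrank_pos (R := F) (by omega)
  by_cases hall : ∀ i, (M i).ScalOn W
  · obtain ⟨w, hw⟩ := exists_ne (0 : W)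
    have hw' : (w : V) ≠ 0 := fun h => hw (Subtype.ext h)
    refine dead_pair E hx.comm hM hl hcov (ht w w.2 w w.2) (sq_ne E.form hw' h2 (Or.inl rfl)) ?_
    intro i
    obtain ⟨a, ha, hs⟩ := hall i
    exact ⟨a, a, ha, ha, hs w w.2, hs w w.2, ne_of_not_scal L (M i) (hl i) (hi' i) ha hs (hns i)⟩
  -- there is a member which is not a scalar on `W`
  push Not at hall
  obtain ⟨i₀, hi₀⟩ := hall
  have hother : ∀ i, i ≠ i₀ → (M i).ScalOn W := by
    intro i hne
    by_contra hc
    exact hne (hs i i₀ hc hi₀)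
  have hperf := perfect_SL (F := F) (W := W) hgood
  -- the homomorphism
  have hcent : ∀ i, i ≠ i₀ → ∀ s, x i * (ρ.comp (jS L)) s = (ρ.comp (jS L)) s * x i := by
    intro i hne s
    have h3 := hM i (jS L s)
    have h4 : SS.cj (M i) (jS L s) = jS L s := cj_of_scalOn L (M i) (hl i) (hi' i) (hother i hne) s.1
    rw [h4] at h3
    exact mul_inv_eq_iff_eq_mul.1 h3
  have hnc : ¬ ∀ s, x i₀ * (ρ.comp (jS L)) s = (ρ.comp (jS L)) s * x i₀ := by
    intro h
    have h3 := (E.cent_iff (hM i₀) (jS L) hperf).1 h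
    exact hi₀ (scalOn_of_comm L (M i₀) (hl i₀) (hi i₀) hn (fun g v => h3 g v))
  have hmr := fun ω : Ω => mrule_hom (ρ.comp (jS L)) (by
      intro s h
      rw [Subgroup.mem_center_iff]
      intro t
      apply jS_inj L
      rw [map_mul, map_mul]
      exact scal_central ((E.ker _).1 h) (jS L t)) hperf (simple_SL hgood) (ncomm_SL hgood) hx hcov i₀ (by
      intro s
      refine ⟨⟨rs (M i₀) (hl i₀) (hi i₀) * s.1 * (rs (M i₀) (hl i₀) (hi i₀))⁻¹, ?_⟩, ?_⟩
      · rw [map_mul, map_mul, s.2, mul_one, ← map_mul, mul_inv_cancel, map_one]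
      · have h3 := hM i₀ (jS L s)
        have h4 : SS.cj (M i₀) (jS L s) = _ := cj_jW L (M i₀) (hl i₀) (hi i₀) (hi' i₀) s.1
        rw [h4] at h3
        exact h3) hcent ω
  -- the element `y`
  obtain ⟨y, w, w', a, a', hw0, hww, hyw, hyw', ha, ha', hne⟩ : ∃ (y : SpecialLinearGroup F W) (w w' : W)
      (a a' : F), (w : V) ≠ 0 ∧ ((w : V) = w' ∨ ∀ a b : F, a • (w : V) + b • (w' : V) = 0 → b = 0) ∧
      y.1 w = a • w ∧ y.1 w' = a' • w' ∧ a ≠ 0 ∧ a' ≠ 0 ∧ a * a' ≠ 1 := by
    have : Fintype F := Fintype.ofFinite F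
    let b : Basis (Fin (finrank F W)) F W := finBasis F W
    let i0 : Fin (finrank F W) := ⟨0, by omega⟩
    let i1 : Fin (finrank F W) := ⟨1, by omega⟩
    have h01 : i0 ≠ i1 := by
      intro h
      have := congrArg Fin.val h
      simp [i0, i1] at this
    have hex : ∀ c : F, c ≠ 0 → ∃ y : SpecialLinearGroup F W, (y.1 (b i0) = c • b i0) ∧
        (∀ i, i ≠ i0 → i ≠ i1 → y.1 (b i) = (1 : F) • b i) := by
      intro c hc
      have hprod : ∏ i, (fun i => (if i = i0 then c else 1) * (if i = i1 then c⁻¹ else 1) :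
          Fin (finrank F W) → F) i = 1 := by
        rw [Finset.prod_mul_distrib, Finset.prod_ite_eq', Finset.prod_ite_eq']
        simp [hc]
      obtain ⟨y, hy⟩ := exists_diag b (fun i => (if i = i0 then c else 1) * (if i = i1 then c⁻¹ else 1)) hprod
      refine ⟨y, ?_, ?_⟩
      · rw [hy]
        simp [h01]
      · intro i hi0 hi1
        rw [hy]
        simp [hi0, hi1]
    have hb0 : ((b i0 : W) : V) ≠ 0 := fun h => b.ne_zero i0 (Subtype.ext h)
    by_cases h3 : 3 ≤ finrank F W
    · obtain ⟨y, hy1, hy2⟩ := hex (-1) (by simp)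
      let i2 : Fin (finrank F W) := ⟨2, by omega⟩
      have h02 : i0 ≠ i2 := by
        intro h
        have := congrArg Fin.val h
        simp [i0, i2] at this
      have h12 : i1 ≠ i2 := by
        intro h
        have := congrArg Fin.val h
        simp [i1, i2] at this
      refine ⟨y, b i0, b i2, -1, 1, hb0, Or.inr ?_, hy1, hy2 i2 h02.symm h12.symm, by simp, one_ne_zero, ?_⟩
      · intro c d hcd
        have h4 : c • b i0 + d • b i2 = 0 := Subtype.ext hcd
        have h5 := congrArg (fun z => b.repr z i2) h4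
        simpa [h02, Finsupp.single_apply] using h5
      · intro h
        apply h2
        linear_combination -h
    · obtain ⟨c, hc0, hc1⟩ : ∃ c : F, c ≠ 0 ∧ c * c ≠ 1 := by
        by_contra hno
        push Not at hno
        have h4 : (Finset.univ : Finset F) ⊆ {0, 1, -1} := by
          intro c _
          by_cases hc : c = 0
          · simp [hc]
          · have h5 := hno c hc
            have h6 : (c - 1) * (c + 1) = 0 := by linear_combination h5
            rcases mul_eq_zero.1 h6 with h7 | h7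
            · simp [sub_eq_zero.1 h7]
            · simp [eq_neg_of_add_eq_zero_left h7]
        have h5 := Finset.card_le_card h4
        have h6 : ({0, 1, -1} : Finset F).card ≤ 3 := Finset.card_le_three
        rw [Finset.card_univ, ← Nat.card_eq_fintype_card] at h5
        omega
      obtain ⟨y, hy1, hy2⟩ := hex c hc0
      exact ⟨y, b i0, b i0, c, c, hb0, Or.inl rfl, hy1, hy1, hc0, hc0, hc1⟩
  -- the new cover
  have hfin : Finite (Option {i : ι // i ≠ i₀}) := inferInstance
  refine dead_pair (ι := Option {i : ι // i ≠ i₀}) (x := fun o => o.elim (ρ (jS L y)) fun i => x i)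
    (M := fun o => o.elim (SS.tg (jS L y)) fun i => M i) E ?_ ?_ ?_ ?_ (ht w w.2 w' w'.2)
    (sq_ne E.form hw0 h2 hww) ?_
  · rintro (_ | i) (_ | j)
    · rfl
    · exact (hcent j j.2 y).symm
    · exact hcent i i.2 y
    · exact hx.comm i j
  · rintro (_ | i)
    · exact Lf.tg _
    · exact hM i
  · rintro (_ | i)
    · exact SS.tg_lin _
    · exact hl i
  · intro ω
    rcases hmr ω with h | ⟨i, h, h'⟩
    · exact ⟨none, h y⟩
    · have hne : i ≠ i₀ := by
        rintro rfl
        exact hnc h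
      exact ⟨some ⟨i, hne⟩, h'⟩
  · rintro (_ | i)
    · refine ⟨a, a', ha, ha', ?_, ?_, hne⟩
      · show (jW L y.1).1 (w : V) = _
        rw [jW_apply, hyw]
        rfl
      · show (jW L y.1).1 (w' : V) = _
        rw [jW_apply, hyw']
        rfl
    · obtain ⟨a, ha, hsc⟩ := hother i i.2
      exact ⟨a, a, ha, ha, hsc w w.2, hsc w' w'.2, ne_of_not_scal L (M i) (hl i) (hi' i) ha hsc (hns i)⟩

end fin

end Cfsg.Agent.H686.RC.DD
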